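import Cfsg.Agent.H88.Concl
import Cfsg.Agent.H88.SysOf

/-!
# S2201 from the classification of the 2-transitive groups with non-abelian socle (helper88)
-/

set_option autoImplicit false

namespace Cfsg.Agent.H88.Main2201

open Subgroup MulAction Cfsg.Agent.H360.ON
open Cfsg Cfsg.Agent.H384.TwoTrans

universe u v

theorem main {G : Type u} {X : Type v} [Group G] [Finite G] [Finite X] [MulAction G X] [FaithfulSMul G X]
    (Fc : Concl.Facts) (hK : ∀ T : Subgroup G, AS G X T → Known2 T (Nat.card X))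
    (h2 : IsMultiplyPretransitive G X 2) (x : X) (N : Subgroup G)
    (hNle : N ≤ stabilizer G x) (hNnormal : ∀ g ∈ stabilizer G x, ∀ n ∈ N, g * n * g⁻¹ ∈ N)
    (hTI : ∀ g : G, N.map (MulAut.conj g).toMonoidHom = N ∨ N.map (MulAut.conj g).toMonoidHom ⊓ N = ⊥)
    (hnsr : ∃ n ∈ N, n ≠ 1 ∧ ∃ y : X, y ≠ x ∧ n • y = y) :
    ∃ (L : Subgroup G) (F : Type) (_ : Field F) (_ : Fintype F) (n : ℕ), 3 ≤ n ∧ L.Normal ∧
      Subgroup.centralizer (L : Set G) = ⊥ ∧ Nonempty (↥L ≃* Matrix.ProjectiveSpecialLinearGroup (Fin n) F) ∧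
      Nat.card X * (Fintype.card F - 1) = Fintype.card F ^ n - 1 := by
  have S := SysOf.exists_sys h2 x N hNle hNnormal hTI hnsr
  rcases reduction h2 (SysOf.three_le S) with ⟨V, hV, -, -, -, htr, hreg⟩ | ⟨T, A⟩
  · exact (SysOf.not_regular S hV htr hreg).elim
  · exact Concl.concl Fc S A (hK T A)

end Cfsg.Agent.H88.Main2201
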