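import Mathlib
import Cfsg.Agent.H360.ON.Sys
import Cfsg.Agent.H88.RankOne
import Cfsg.Agent.H970.StabK

/-!
# Numerical consequences of the existence of a non-semiregular TI family (helper88)

`Sys N` : a 2-transitive group `G` of degree `n` with a non-semiregular TI family.
`β = |N a ∩ G_b| ≥ 2`, `β²` divides `|G_ab|`, `|N a| = ν β` with `2 ≤ ν ∣ n - 1`; for a prime `r` exactly dividing `|G_a|`
and a bound `c` for the centralisers of the elements of order `r`:
* if `r ∣ |N a|`, then `|G_a|` divides `t (r - 1) c` with `t ∣ |N a|`, `t ≡ 1 mod r`;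
* otherwise for every prime `s` the `s`-part of `|N a|` is congruent to `s ^ i` mod `r` for some `s ^ i ∣ c`.
-/

set_option autoImplicit false

namespace Cfsg.Agent.H88.SysNum

open Subgroup MulAction Cfsg.Agent.H360.ON

variable {G X : Type*} [Group G] [MulAction G X] [Finite G] [Finite X] {N : X → Subgroup G}

omit [Finite G] [Finite X] in
theorem two (S : Sys N) : IsMultiplyPretransitive G X 2 := by
  rw [is_two_pretransitive_iff]
  intro a b c d hab hcd
  exact S.two a b c d hab hcd

/-- a group isomorphic to the two-point stabiliser -/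
theorem card_stab (S : Sys N) {a b : X} (hab : a ≠ b) :
    Nat.card (stabilizer G a) = (Nat.card X - 1) * Nat.card ↥(stabilizer G a ⊓ stabilizer G b) := by
  rw [RankOne.card_stab_two (two S) hab.symm]
  congr 1
  exact Nat.card_congr ⟨fun t => ⟨t.1.1, t.1.2, t.2⟩, fun t => ⟨⟨t.1, t.2.1⟩, t.2.2⟩, fun _ => rfl, fun _ => rfl⟩

theorem card_G (S : Sys N) (a : X) : Nat.card G = Nat.card X * Nat.card (stabilizer G a) := by
  have h1 := (stabilizer G a).index_mul_card
  have ht : IsPretransitive G X := by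
    refine ⟨fun x y => ?_⟩
    by_cases hxy : x = y
    · exact ⟨1, by rw [hxy, one_smul]⟩
    · obtain ⟨g, h, -⟩ := S.two x y y x hxy (Ne.symm hxy)
      exact ⟨g, h⟩
  rw [index_stabilizer_of_transitive] at h1
  exact h1.symm

theorem sq_dvd (S : Sys N) {a b : X} (hab : a ≠ b) :
    Nat.card (A N a b) ^ 2 ∣ Nat.card ↥(stabilizer G a ⊓ stabilizer G b) := by
  let φ : A N a b × A N b a →* ↥(stabilizer G a ⊓ stabilizer G b) :=
    { toFun := fun p => ⟨p.1.1 * p.2.1, mul_mem (S.fix a _ p.1.2.1) p.2.2.2, mul_mem p.1.2.2 (S.fix b _ p.2.2.1)⟩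
      map_one' := by
        apply Subtype.ext
        simp
      map_mul' := by
        rintro ⟨x, y⟩ ⟨x', y'⟩
        apply Subtype.ext
        change (x * x' : G) * (y * y') = x * y * (x' * y')
        have h := S.comm_AB hab x'.2 y.2
        calc (x * x' : G) * (y * y') = x * (x' * y) * y' := by group
          _ = x * (y * x') * y' := by rw [h]
          _ = _ := by group }
  have hinj : Function.Injective φ := by
    rw [injective_iff_map_eq_one]
    rintro ⟨x, y⟩ h
    have h1 : (x : G) * y = 1 := congrArg Subtype.val h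
    have h2 : (x : G) = (y : G)⁻¹ := eq_inv_of_mul_eq_one_left h1
    have h3 : (x : G) ∈ N b := by rw [h2]; exact inv_mem y.2.1
    have h4 := S.ti a b hab x x.2.1 h3
    rw [h4, one_mul] at h1
    exact Prod.ext (Subtype.ext h4) (Subtype.ext h1)
  have h1 := Subgroup.card_dvd_of_injective φ hinj
  rwa [Nat.card_prod, S.card_A hab.symm hab, ← pow_two] at h1

theorem normal (S : Sys N) (a : X) : ((N a).subgroupOf (stabilizer G a)).Normal := by
  refine ⟨fun n hn g => ?_⟩
  rw [Subgroup.mem_subgroupOf] at hn ⊢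
  exact S.mem_stab_conj hn g.2

omit [Finite G] [Finite X] in
theorem le_stab (S : Sys N) (a : X) : N a ≤ stabilizer G a := fun x hx => S.fix a x hx

theorem exists_nu (S : Sys N) [FaithfulSMul G X] {a b : X} (hab : a ≠ b) :
    ∃ ν : ℕ, 2 ≤ ν ∧ ν ∣ Nat.card X - 1 ∧ Nat.card (N a) = ν * Nat.card (A N a b) := by
  have hn := normal S a
  set M := (N a).subgroupOf (stabilizer G a) with hM
  set H := (stabilizer G b).subgroupOf (stabilizer G a) with hH
  have hcM : Nat.card M = Nat.card (N a) := Nat.card_congr (subgroupOfEquivOfLe (le_stab S a)).toEquiv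
  have hcH : Nat.card H = Nat.card ↥(stabilizer G a ⊓ stabilizer G b) :=
    Nat.card_congr ⟨fun t => ⟨t.1.1, t.1.2, t.2⟩, fun t => ⟨⟨t.1, t.2.1⟩, t.2.2⟩, fun _ => rfl, fun _ => rfl⟩
  have hcMH : Nat.card ↥(M ⊓ H) = Nat.card (A N a b) :=
    Nat.card_congr ⟨fun t => ⟨t.1.1, t.2.1, t.2.2⟩, fun t => ⟨⟨t.1, S.fix a _ t.2.1⟩, t.2.1, t.2.2⟩, fun _ => rfl,
      fun _ => rfl⟩
  obtain ⟨ν, hν⟩ : Nat.card (A N a b) ∣ Nat.card (N a) := card_dvd_of_le inf_le_left
  have hA2 := S.two_le_card_A hab
  refine ⟨ν, ?_, ?_, by rw [hν, mul_comm]⟩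
  · by_contra h
    have h1 : ν = 0 ∨ ν = 1 := by omega
    have hpos : 0 < Nat.card (N a) := Nat.card_pos
    rcases h1 with rfl | rfl
    · omega
    · rw [mul_one] at hν
      -- `N a` fixes every point
      have hall : ∀ c, a ≠ c → A N a c = N a := by
        intro c hac
        apply Subgroup.eq_of_le_of_card_ge inf_le_left
        rw [hν]
        exact (S.card_A hab hac).le
      obtain ⟨x, hx, hx1⟩ := S.exists_ne_one hab
      apply hx1
      apply FaithfulSMul.eq_of_smul_eq_smul (α := X)
      intro c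
      rw [one_smul]
      by_cases hac : a = c
      · rw [← hac]
        exact S.fix a x hx.1
      · have h2 : x ∈ A N a c := by
          rw [hall c hac]
          exact hx.1
        exact h2.2
  · have h1 : M.relIndex (H ⊔ M) = M.relIndex H := by
      rw [sup_comm]
      exact relIndex_sup_left H M
    have h2 : Nat.card H = Nat.card ↥(M ⊓ H) * M.relIndex H := by
      have := (M.subgroupOf H).card_mul_index
      rw [← this]
      congr 1
      exact Nat.card_congr ⟨fun t => ⟨t.1.1, t.2, t.1.2⟩, fun t => ⟨⟨t.1, t.2.2⟩, t.2.1⟩, fun _ => rfl, fun _ => rfl⟩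
    have h3 : Nat.card ↥(H ⊔ M) = Nat.card M * M.relIndex (H ⊔ M) := by
      have := (M.subgroupOf (H ⊔ M)).card_mul_index
      rw [← this]
      congr 1
      exact Nat.card_congr (subgroupOfEquivOfLe (le_sup_right : M ≤ H ⊔ M)).toEquiv
    have h4 : Nat.card ↥(H ⊔ M) ∣ Nat.card (stabilizer G a) := card_subgroup_dvd_card _
    rw [card_stab S hab] at h4
    rw [h3, h1, hcM, hν] at h4
    rw [hcMH, hcH] at h2
    rw [h2] at h4
    have h5 : Nat.card (A N a b) * M.relIndex H * ν ∣ Nat.card (A N a b) * M.relIndex H * (Nat.card X - 1) := by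
      have e1 : Nat.card (A N a b) * M.relIndex H * ν = Nat.card (A N a b) * ν * M.relIndex H := by ring
      have e2 : Nat.card (A N a b) * M.relIndex H * (Nat.card X - 1) =
        (Nat.card X - 1) * (Nat.card (A N a b) * M.relIndex H) := by ring
      rw [e1, e2]
      exact h4
    refine Nat.dvd_of_mul_dvd_mul_left ?_ h5
    rw [← h2]
    exact Nat.card_pos

/-- `|N(P)|` divides `(r - 1) |C(P)|` -/
theorem card_normalizer_dvd {H : Type*} [Group H] [Finite H] {P : Subgroup H} {r : ℕ} (hr : r.Prime)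
    (hP : Nat.card P = r) :
    Nat.card (normalizer (P : Set H)) ∣ (r - 1) * Nat.card (centralizer (P : Set H)) := by
  have hf : Fact r.Prime := ⟨hr⟩
  have hcyc : IsCyclic P := isCyclic_of_prime_card hP
  have h1 := card_dvd_of_injective _ (QuotientGroup.kerLift_injective P.normalizerMonoidHom)
  rw [normalizerMonoidHom_ker, hcyc.card_mulAut, hP, Nat.totient_prime hr] at h1
  have h2 := ((centralizer (P : Set H)).subgroupOf (normalizer (P : Set H))).card_mul_index
  have h3 : Nat.card ((centralizer (P : Set H)).subgroupOf (normalizer (P : Set H))) =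
      Nat.card (centralizer (P : Set H)) :=
    Nat.card_congr (subgroupOfEquivOfLe (centralizer_le_normalizer _)).toEquiv
  rw [← h2, h3, mul_comm]
  exact Nat.mul_dvd_mul_right h1 _

/-- the numerical statement -/
def Num (ga gab m r c : ℕ) : Prop :=
  ∃ ν β : ℕ, 2 ≤ ν ∧ ν ∣ m ∧ 2 ≤ β ∧ β ^ 2 ∣ gab ∧
    ((r ∣ ν * β ∧ ∃ t, t ∣ ν * β ∧ t ≡ 1 [MOD r] ∧ ga ∣ t * ((r - 1) * c)) ∨
      (¬ r ∣ ν * β ∧ ∀ s j : ℕ, s.Prime → s ^ j ∣ ν * β → ¬ s ^ (j + 1) ∣ ν * β →
        ∃ i, s ^ i ∣ c ∧ s ^ j ≡ s ^ i [MOD r]))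

theorem num (S : Sys N) [FaithfulSMul G X] {a b : X} (hab : a ≠ b) {r c : ℕ} (hr : r.Prime)
    (h1 : r ∣ Nat.card (stabilizer G a)) (h2 : ¬ r ^ 2 ∣ Nat.card (stabilizer G a))
    (hc : ∀ x : G, orderOf x = r → x • a = a → Nat.card (centralizer ({x} : Set G)) ∣ c) :
    Num (Nat.card (stabilizer G a)) (Nat.card ↥(stabilizer G a ⊓ stabilizer G b)) (Nat.card X - 1) r c := by
  have hf : Fact r.Prime := ⟨hr⟩
  obtain ⟨ν, hν2, hνm, hν⟩ := exists_nu S hab
  refine ⟨ν, Nat.card (A N a b), hν2, hνm, S.two_le_card_A hab, sq_dvd S hab, ?_⟩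
  rw [← hν]
  have hn := normal S a
  set M := (N a).subgroupOf (stabilizer G a) with hM
  have hcM : Nat.card M = Nat.card (N a) := Nat.card_congr (subgroupOfEquivOfLe (le_stab S a)).toEquiv
  -- centralisers
  have hcent : ∀ P : Subgroup (stabilizer G a), Nat.card P = r →
      Nat.card (centralizer (P : Set (stabilizer G a))) ∣ c := by
    intro P hP
    obtain ⟨x, hx⟩ := exists_prime_orderOf_dvd_card' r (G := P) (by rw [hP])
    have hxo : orderOf ((x : stabilizer G a) : G) = r := by
      rw [← hx, Subgroup.orderOf_coe, Subgroup.orderOf_coe]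
    refine dvd_trans ?_ (hc ((x : stabilizer G a) : G) hxo (x : stabilizer G a).2)
    let f : centralizer (P : Set (stabilizer G a)) →* centralizer ({((x : stabilizer G a) : G)} : Set G) :=
      { toFun := fun g => ⟨(g : stabilizer G a), by
          rw [mem_centralizer_singleton_iff]
          have := mem_centralizer_iff.1 g.2 x x.2
          exact (congrArg Subtype.val this).symm⟩
        map_one' := rfl
        map_mul' := fun _ _ => rfl }
    apply card_dvd_of_injective f
    intro g g' h
    have h3 := congrArg Subtype.val h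
    exact Subtype.ext (Subtype.ext h3)
  rw [← hcM]
  by_cases hrM : r ∣ Nat.card M
  · left
    refine ⟨hrM, ?_⟩
    obtain ⟨x, hx⟩ := exists_prime_orderOf_dvd_card' r hrM
    set P : Subgroup (stabilizer G a) := zpowers (x : stabilizer G a) with hPdef
    have hPM : P ≤ M := by
      rw [hPdef, zpowers_le]
      exact x.2
    have hP : Nat.card P = r := by
      rw [hPdef, Nat.card_zpowers, Subgroup.orderOf_coe, hx]
    have h3 := H970.StabK.card_normalizer_frattini hPM hP h2
    -- the number of Sylow subgroups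
    set Q : Subgroup M := P.subgroupOf M with hQdef
    have hQ : Nat.card Q = r := by
      rw [Nat.card_congr (Subgroup.subgroupOfEquivOfLe hPM).toEquiv, hP]
    have hM2 : ¬ r ^ 2 ∣ Nat.card M := fun h => h2 (h.trans (card_subgroup_dvd_card M))
    obtain ⟨Sy, hSy⟩ := H970.StabK.exists_sylow hQ hM2
    refine ⟨Nat.card (Sylow r M), ?_, card_sylow_modEq_one r M, ?_⟩
    · exact (Sylow.card_dvd_index Sy).trans (index_dvd_card _)
    · have h4 : Nat.card (Sylow r M) * Nat.card (normalizer (Q : Set M)) = Nat.card M := by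
        rw [Sylow.card_eq_index_normalizer Sy, ← hSy]
        exact index_mul_card _
      have h5 : Nat.card (stabilizer G a) = Nat.card (Sylow r M) * Nat.card (normalizer (P : Set (stabilizer G a))) := by
        rw [h3, ← M.index_mul_card, ← h4]
        ring
      rw [h5]
      apply Nat.mul_dvd_mul_left
      exact (card_normalizer_dvd hr hP).trans (Nat.mul_dvd_mul_left _ (hcent P hP))
  · right
    refine ⟨hrM, ?_⟩
    obtain ⟨x, hx⟩ := exists_prime_orderOf_dvd_card' r h1
    set P : Subgroup (stabilizer G a) := zpowers x with hPdef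
    have hP : Nat.card P = r := by
      rw [hPdef, Nat.card_zpowers, hx]
    intro s j hs hj1 hj2
    obtain ⟨i, hi1, hi2⟩ := H970.StabK.exists_pow (R := M) hP hrM s hs
    have hfac : (Nat.card M).factorization s = j := by
      have h0 : Nat.card M ≠ 0 := Nat.card_pos.ne'
      have h3 := (hs.pow_dvd_iff_le_factorization h0).1 hj1
      have h4 : ¬ j + 1 ≤ (Nat.card M).factorization s := fun h => hj2 ((hs.pow_dvd_iff_le_factorization h0).2 h)
      omega
    rw [hfac] at hi2
    refine ⟨i, hi1.trans (dvd_trans ?_ (hcent P hP)), hi2⟩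
    exact card_dvd_of_le (H970.StabK.inf_le_cent hP hrM)

end Cfsg.Agent.H88.SysNum
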