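import Mathlib
import Cfsg.Agent.H88.SysNum

/-!
# The alternating and symmetric groups of degree at least 6 have no TI family (helper88)
-/

set_option autoImplicit false

namespace Cfsg.Agent.H88.SysAlt

open Subgroup MulAction Cfsg.Agent.H360.ON

/-- the point stabiliser of `Alt X` is simple -/
theorem stab_le {X : Type*} [Fintype X] [DecidableEq X] (h6 : 6 ≤ Fintype.card X) (a : X)
    (M : Subgroup (Equiv.Perm X)) (hM : M ≤ alternatingGroup X) (hMa : ∀ m ∈ M, m a = a)
    (hinv : ∀ g ∈ alternatingGroup X, g a = a → ∀ m ∈ M, g * m * g⁻¹ ∈ M) (hne : M ≠ ⊥) :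
    ∀ g ∈ alternatingGroup X, g a = a → g ∈ M := by
  set s : Finset X := Finset.univ.erase a with hs
  have hcard : 5 ≤ Nat.card s := by
    rw [Nat.card_eq_fintype_card, Fintype.card_coe, hs, Finset.card_erase_of_mem (Finset.mem_univ _), Finset.card_univ]
    omega
  have hsupp : ∀ g : alternatingGroup X, (g : Equiv.Perm X) a = a → g ∈ (alternatingGroup.ofSubtype s).range := by
    intro g hg
    rw [alternatingGroup.mem_range_ofSubtype_iff]
    intro b hb
    rw [hs, Finset.mem_erase]
    refine ⟨?_, Finset.mem_univ _⟩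
    rintro rfl
    rw [Equiv.Perm.mem_support] at hb
    exact hb hg
  have hfix : ∀ k : alternatingGroup s, ((alternatingGroup.ofSubtype s k : alternatingGroup X) : Equiv.Perm X) a = a := by
    intro k
    have h1 : alternatingGroup.ofSubtype s k ∈ (alternatingGroup.ofSubtype s).range := ⟨k, rfl⟩
    rw [alternatingGroup.mem_range_ofSubtype_iff] at h1
    by_contra h2
    have h3 := h1 (Equiv.Perm.mem_support.2 h2)
    rw [hs, Finset.mem_erase] at h3
    exact h3.1 rfl
  let K : Subgroup (alternatingGroup s) := (M.comap (alternatingGroup X).subtype).comap (alternatingGroup.ofSubtype s)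
  have hK : ∀ k, k ∈ K ↔ ((alternatingGroup.ofSubtype s k : alternatingGroup X) : Equiv.Perm X) ∈ M := fun _ => Iff.rfl
  have hKn : K.Normal := by
    refine ⟨fun n hn g => ?_⟩
    rw [hK] at hn ⊢
    rw [map_mul, map_mul, map_inv]
    exact hinv _ (alternatingGroup.ofSubtype s g).2 (hfix g) _ hn
  rcases alternatingGroup.normal_subgroup_eq_bot_or_eq_top hcard (N := K) with h | h
  · exfalso
    apply hne
    rw [Subgroup.eq_bot_iff_forall]
    intro m hm
    obtain ⟨k, hk⟩ := hsupp ⟨m, hM hm⟩ (hMa m hm)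
    have h1 : k ∈ K := by
      rw [hK, hk]
      exact hm
    rw [h, Subgroup.mem_bot] at h1
    rw [h1, map_one] at hk
    exact (congrArg Subtype.val hk).symm
  · intro g hg hga
    obtain ⟨k, hk⟩ := hsupp ⟨g, hg⟩ hga
    have h1 : k ∈ K := by rw [h]; trivial
    rw [hK, hk] at h1
    exact h1

variable {G X : Type*} [Group G] [MulAction G X] [Finite G] [Finite X] [FaithfulSMul G X] {N : X → Subgroup G}

theorem not_sys (S : Sys N) {T : Subgroup G} (h6 : 6 ≤ Nat.card X) (hT : 2 * Nat.card T = (Nat.card X).factorial) :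
    False := by
  classical
  have : Fintype X := Fintype.ofFinite X
  have hX : Nat.card X = Fintype.card X := Nat.card_eq_fintype_card
  rw [hX] at h6 hT
  let φ : G →* Equiv.Perm X := toPermHom G X
  have hφ : Function.Injective φ := MulAction.toPerm_injective
  -- `φ(T)` is the alternating group
  have hTA : T.map φ = alternatingGroup X := by
    apply Equiv.Perm.eq_alternatingGroup_of_index_eq_two
    have h1 := (T.map φ).index_mul_card
    rw [Nat.card_congr (T.equivMapOfInjective φ hφ).toEquiv.symm, Nat.card_perm, hX, ← hT] at h1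
    exact Nat.eq_of_mul_eq_mul_right Nat.card_pos h1
  -- every even permutation is in the image
  have hsurj : ∀ p ∈ alternatingGroup X, ∃ g ∈ T, φ g = p := by
    intro p hp
    rw [← hTA] at hp
    exact hp
  have key : ∀ a : X, ∀ p ∈ alternatingGroup X, p a = a → ∃ x ∈ N a, φ x = p := by
    intro a p hp hpa
    set M : Subgroup (Equiv.Perm X) := (N a).map φ ⊓ alternatingGroup X with hM
    have hne : M ≠ ⊥ := by
      intro h
      -- `|N a| ≤ 2`
      obtain ⟨b, hab⟩ : ∃ b : X, b ≠ a := by
        have : Nontrivial X := Fintype.one_lt_card_iff_nontrivial.1 (by omega)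
        exact exists_ne a
      obtain ⟨ν, hν2, -, hν⟩ := SysNum.exists_nu S hab.symm
      have hβ := S.two_le_card_A hab.symm
      have h4 : 4 ≤ Nat.card (N a) := by
        rw [hν]
        exact Nat.mul_le_mul hν2 hβ
      have h5 : Nat.card ((N a).map φ) = Nat.card (N a) := Nat.card_congr ((N a).equivMapOfInjective φ hφ).toEquiv.symm
      have hinj : Function.Injective ((Equiv.Perm.sign : Equiv.Perm X →* ℤˣ).comp ((N a).map φ).subtype) := by
        rw [injective_iff_map_eq_one]
        intro y hy
        have h6 : (y : Equiv.Perm X) ∈ M := ⟨y.2, Equiv.Perm.mem_alternatingGroup.2 hy⟩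
        rw [h, Subgroup.mem_bot] at h6
        exact Subtype.ext h6
      have h6 := Nat.card_le_card_of_injective _ hinj
      have h7 : Nat.card ℤˣ = 2 := by rw [Nat.card_eq_fintype_card, Fintype.card_units_int]
      omega
    have h1 := stab_le h6 a M inf_le_right (by
      rintro _ ⟨⟨x, hx, rfl⟩, -⟩
      exact S.fix a x hx) (by
      rintro g hg hga _ ⟨⟨x, hx, rfl⟩, h2⟩
      obtain ⟨g, -, rfl⟩ := hsurj g hg
      have hga' : g • a = a := hga
      refine ⟨⟨g * x * g⁻¹, S.mem_stab_conj hx hga', by simp⟩, ?_⟩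
      exact (alternatingGroup X).mul_mem ((alternatingGroup X).mul_mem hg h2) ((alternatingGroup X).inv_mem hg)) hne p hp
      hpa
    exact h1.1
  obtain ⟨s, hs⟩ := Finset.exists_subset_card_eq (show 5 ≤ (Finset.univ : Finset X).card by rw [Finset.card_univ]; omega)
  obtain ⟨-, hs⟩ := hs
  obtain ⟨a, b, c, d, e, h1⟩ : ∃ a b c d e : X, [a, b, c, d, e].Nodup := by
    have h2 : s.toList.length = 5 := by rw [Finset.length_toList, hs]
    have h3 := s.nodup_toList
    match hl : s.toList, h2 with
    | [a, b, c, d, e], _ => exact ⟨a, b, c, d, e, by rw [← hl]; exact h3⟩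
  simp only [List.nodup_cons, List.mem_cons, List.not_mem_nil, or_false, not_or, List.nodup_nil, and_true] at h1
  obtain ⟨⟨hab, hac, had, hae⟩, ⟨hbc, hbd, hbe⟩, ⟨hcd, hce⟩, hde, -⟩ := h1
  set p : Equiv.Perm X := Equiv.swap c d * Equiv.swap d e with hp
  have hpA : p ∈ alternatingGroup X := by
    rw [Equiv.Perm.mem_alternatingGroup, hp, map_mul, Equiv.Perm.sign_swap hcd, Equiv.Perm.sign_swap hde]
    rfl
  have hpa : p a = a := by
    rw [hp, Equiv.Perm.mul_apply, Equiv.swap_apply_of_ne_of_ne had hae, Equiv.swap_apply_of_ne_of_ne hac had]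
  have hpb : p b = b := by
    rw [hp, Equiv.Perm.mul_apply, Equiv.swap_apply_of_ne_of_ne hbd hbe, Equiv.swap_apply_of_ne_of_ne hbc hbd]
  obtain ⟨x, hx, hxp⟩ := key a p hpA hpa
  obtain ⟨y, hy, hyp⟩ := key b p hpA hpb
  have hxy : x = y := hφ (hxp.trans hyp.symm)
  have h1 := S.ti a b hab x hx (by rw [hxy]; exact hy)
  rw [h1, map_one] at hxp
  have h2 : p e = c := by
    rw [hp, Equiv.Perm.mul_apply, Equiv.swap_apply_right, Equiv.swap_apply_right]
  rw [← hxp, Equiv.Perm.one_apply] at h2
  exact hce h2.symm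

end Cfsg.Agent.H88.SysAlt
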