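import Mathlib
import Cfsg.Agent.H88.SysNum

/-!
# Exclusion of TI families by arithmetic (helper88)

* `card_cent_dvd` : an element of prime order `r` with exactly one fixed point among `r k + 1` points has a centraliser of
  order dividing `r ^ k * k!`;
* `chk`, `not_num` : a kernel-friendly test for `¬ Num`;
* `not_sys_k`, `not_sys_c` : the two forms of the exclusion.
-/

set_option autoImplicit false

namespace Cfsg.Agent.H88.SysNum

open Subgroup MulAction Cfsg.Agent.H360.ON

theorem card_cent_dvd {G X : Type*} [Group G] [MulAction G X] [Finite G] [Finite X] [FaithfulSMul G X] {x : G} {a : X}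
    {r k : ℕ} (hr : r.Prime) (hx : orderOf x = r) (hxa : x • a = a) (hfix : ∀ b, b ≠ a → x • b ≠ b)
    (hn : Nat.card X = r * k + 1) : Nat.card (centralizer ({x} : Set G)) ∣ r ^ k * k.factorial := by
  classical
  have : Fintype X := Fintype.ofFinite X
  have hf : Fact r.Prime := ⟨hr⟩
  let φ : G →* Equiv.Perm X := toPermHom G X
  have hφ : Function.Injective φ := MulAction.toPerm_injective
  set g : Equiv.Perm X := φ x with hg
  have hgo : orderOf g = r := by rw [hg, orderOf_injective φ hφ, hx]
  have h1 : Nat.card (centralizer ({x} : Set G)) ∣ Nat.card (centralizer ({g} : Set (Equiv.Perm X))) := by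
    let f : centralizer ({x} : Set G) →* centralizer ({g} : Set (Equiv.Perm X)) :=
      { toFun := fun y => ⟨φ y, by
          rw [mem_centralizer_singleton_iff, hg, ← map_mul, ← map_mul, mem_centralizer_singleton_iff.1 y.2]⟩
        map_one' := by
          apply Subtype.ext
          simp
        map_mul' := fun y z => by
          apply Subtype.ext
          simp }
    apply card_dvd_of_injective f
    intro y z h
    exact Subtype.ext (hφ (congrArg Subtype.val h))
  refine h1.trans ?_
  obtain ⟨m, hm⟩ := Equiv.Perm.cycleType_prime_order (σ := g) (by rw [hgo]; exact hr)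
  rw [hgo] at hm
  have hsupp : g.support = Finset.univ.erase a := by
    ext b
    rw [Equiv.Perm.mem_support, Finset.mem_erase]
    constructor
    · intro h
      refine ⟨?_, Finset.mem_univ _⟩
      rintro rfl
      exact h hxa
    · rintro ⟨h, -⟩
      exact hfix b h
  have hsum : g.cycleType.sum = r * k := by
    rw [Equiv.Perm.sum_cycleType, hsupp, Finset.card_erase_of_mem (Finset.mem_univ _), Finset.card_univ,
      ← Nat.card_eq_fintype_card, hn, Nat.add_sub_cancel]
  have hmk : m + 1 = k := by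
    rw [hm, Multiset.sum_replicate, smul_eq_mul, mul_comm r k] at hsum
    exact Nat.eq_of_mul_eq_mul_right hr.pos hsum
  rw [Equiv.Perm.nat_card_centralizer, hsum, ← Nat.card_eq_fintype_card, hn, hm, hmk]
  have h2 : (Multiset.replicate k r).toFinset = {r} := by
    rw [Multiset.toFinset_replicate, if_neg (by omega)]
  rw [h2, Finset.prod_singleton, Multiset.prod_replicate, Multiset.count_replicate_self, Nat.add_sub_cancel_left]
  simp

/-- no divisor `t ≡ 1 mod r` of `w` with `ga ∣ t (r - 1) c` -/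
def chkA (w ga r c : ℕ) : Bool :=
  (List.range (w / r + 1)).all fun i => !(w % (1 + r * i) == 0) || !((1 + r * i) * ((r - 1) * c) % ga == 0)

/-- some `s`-part of `w` is not congruent mod `r` to a power of `s` dividing `c` -/
def chkB (w r c : ℕ) : Bool :=
  [2, 3, 5, 7, 11, 23].any fun s => (List.range 12).any fun j =>
    (w % s ^ j == 0) && (!(w % s ^ (j + 1) == 0)) && (List.range 30).all fun i => !(c % s ^ i == 0) || !(s ^ j % r == s ^ i % r)

/-- the test -/
def chk (ga gab m r c B : ℕ) : Bool :=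
  (List.range (m + 1)).all fun ν => (Nat.blt ν 2) || (!(m % ν == 0)) || (List.range (B + 1)).all fun β =>
    (Nat.blt β 2) || (!(gab % (β ^ 2) == 0)) || (bif (ν * β) % r == 0 then chkA (ν * β) ga r c else chkB (ν * β) r c)

theorem not_num {ga gab m r c B : ℕ} (hga : 0 < ga) (hgab : 0 < gab) (hm : 0 < m) (hr : 1 < r) (hc : 0 < c)
    (hc' : c < 2 ^ 30) (hB : gab < (B + 1) ^ 2) (h : chk ga gab m r c B = true) : ¬ Num ga gab m r c := by
  rintro ⟨ν, β, hν2, hνm, hβ2, hβ, h1⟩
  have hνle : ν ≤ m := Nat.le_of_dvd hm hνm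
  have hβle : β ≤ B := by
    by_contra h2
    have h3 : B + 1 ≤ β := by omega
    have h4 := Nat.pow_le_pow_left h3 2
    have h5 := Nat.le_of_dvd hgab hβ
    omega
  unfold chk at h
  rw [List.all_eq_true] at h
  have h2 := h ν (List.mem_range.2 (by omega))
  rw [Bool.or_eq_true, Bool.or_eq_true] at h2
  have hν0 : ¬ Nat.blt ν 2 = true := by
    rw [Nat.blt_eq]
    omega
  have hν1 : ¬ (!(m % ν == 0)) = true := by
    rw [Nat.mod_eq_zero_of_dvd hνm]
    decide
  rcases h2 with (h2 | h2) | h2
  · exact hν0 h2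
  · exact hν1 h2
  rw [List.all_eq_true] at h2
  have h3 := h2 β (List.mem_range.2 (by omega))
  rw [Bool.or_eq_true, Bool.or_eq_true] at h3
  have hβ0 : ¬ Nat.blt β 2 = true := by
    rw [Nat.blt_eq]
    omega
  have hβ1 : ¬ (!(gab % (β ^ 2) == 0)) = true := by
    rw [Nat.mod_eq_zero_of_dvd hβ]
    decide
  rcases h3 with (h3 | h3) | h3
  · exact hβ0 h3
  · exact hβ1 h3
  have hw : 0 < ν * β := Nat.mul_pos (by omega) (by omega)
  rcases h1 with ⟨hr1, t, ht, htr, htg⟩ | ⟨hr1, h4⟩
  · rw [Nat.mod_eq_zero_of_dvd hr1] at h3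
    simp only [beq_self_eq_true, cond_true] at h3
    unfold chkA at h3
    rw [List.all_eq_true] at h3
    have ht0 : t % r = 1 := by
      have : t % r = 1 % r := htr
      rwa [Nat.mod_eq_of_lt hr] at this
    have ht1 : t = 1 + r * (t / r) := by
      have := Nat.mod_add_div t r
      rw [ht0] at this
      exact this.symm
    have h5 := h3 (t / r) (List.mem_range.2 (Nat.lt_succ_of_le (Nat.div_le_div_right (Nat.le_of_dvd hw ht))))
    rw [← ht1, Nat.mod_eq_zero_of_dvd ht, Nat.mod_eq_zero_of_dvd htg] at h5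
    simp at h5
  · have h5 : ((ν * β) % r == 0) = false := by
      rw [beq_eq_false_iff_ne]
      intro h6
      exact hr1 (Nat.dvd_of_mod_eq_zero h6)
    rw [h5] at h3
    simp only [cond_false] at h3
    unfold chkB at h3
    rw [List.any_eq_true] at h3
    obtain ⟨s, hs, h3⟩ := h3
    rw [List.any_eq_true] at h3
    obtain ⟨j, -, h3⟩ := h3
    simp only [Bool.and_eq_true, beq_iff_eq, Bool.not_eq_true', beq_eq_false_iff_ne, ne_eq] at h3
    obtain ⟨⟨h6, h7⟩, h8⟩ := h3
    have hsp : s.Prime := by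
      simp only [List.mem_cons, List.not_mem_nil, or_false] at hs
      rcases hs with rfl | rfl | rfl | rfl | rfl | rfl <;> norm_num
    obtain ⟨i, hi1, hi2⟩ := h4 s j hsp (Nat.dvd_of_mod_eq_zero h6) (fun h9 => h7 (Nat.mod_eq_zero_of_dvd h9))
    have hi : i < 30 := by
      have h9 : 2 ^ i ≤ s ^ i := Nat.pow_le_pow_left hsp.two_le i
      have h10 := Nat.le_of_dvd hc hi1
      exact (Nat.pow_lt_pow_iff_right (by norm_num)).1 (lt_of_le_of_lt (h9.trans h10) hc')
    rw [List.all_eq_true] at h8
    have h9 := h8 i (List.mem_range.2 hi)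
    rw [Nat.mod_eq_zero_of_dvd hi1, (show s ^ j % r = s ^ i % r from hi2)] at h9
    simp at h9

variable {G X : Type*} [Group G] [MulAction G X] [Finite G] [Finite X] [FaithfulSMul G X] {N : X → Subgroup G}

/-- exclusion with a bound for centralisers -/
theorem not_sys_c (S : Sys N) {n ga gab r c B : ℕ} (hn : Nat.card X = n) (hn2 : 2 ≤ n) (hG : Nat.card G = n * ga)
    (hga : ga = (n - 1) * gab) (hga0 : 0 < ga) (hr : r.Prime) (h1 : r ∣ ga) (h2 : ¬ r ^ 2 ∣ ga)
    (hc : ∀ x : G, orderOf x = r → Nat.card (centralizer ({x} : Set G)) ∣ c)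
    (hc0 : 0 < c) (hc1 : c < 2 ^ 30) (hB : gab < (B + 1) ^ 2) (h : chk ga gab (n - 1) r c B = true) : False := by
  obtain ⟨a, b, hab, -⟩ := S.nsr
  have h3 := card_G S a
  rw [hG, hn] at h3
  have h4 : Nat.card (stabilizer G a) = ga := (Nat.eq_of_mul_eq_mul_left (by omega) h3).symm
  have h5 := card_stab S hab
  rw [h4, hn, hga] at h5
  have h6 : Nat.card ↥(stabilizer G a ⊓ stabilizer G b) = gab :=
    (Nat.eq_of_mul_eq_mul_left (by omega) h5).symm
  have h7 := num S hab hr (by rw [h4]; exact h1) (by rw [h4]; exact h2) (fun x hx _ => hc x hx)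
  rw [h4, h6, hn] at h7
  have hgab0 : 0 < gab := by
    rcases Nat.eq_zero_or_pos gab with h8 | h8
    · rw [h8, mul_zero] at hga
      omega
    · exact h8
  exact not_num hga0 hgab0 (by omega) hr.one_lt hc0 hc1 hB h h7

/-- exclusion with a prime `r` dividing `n - 1` but not `|G_ab|` -/
theorem not_sys_k (S : Sys N) {n ga gab r k B : ℕ} (hn : Nat.card X = n) (hG : Nat.card G = n * ga)
    (hga : ga = (n - 1) * gab) (hga0 : 0 < ga) (hr : r.Prime) (hk : n = r * k + 1) (hk0 : k ≠ 0)
    (h2 : ¬ r ^ 2 ∣ ga) (hgab : ¬ r ∣ gab)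
    (hc1 : r ^ k * k.factorial < 2 ^ 30) (hB : gab < (B + 1) ^ 2)
    (h : chk ga gab (n - 1) r (r ^ k * k.factorial) B = true) : False := by
  have hrk : 0 < r * k := Nat.mul_pos hr.pos (Nat.pos_of_ne_zero hk0)
  obtain ⟨a, b, hab, -⟩ := S.nsr
  have h3 := card_G S a
  rw [hG, hn] at h3
  have h4 : Nat.card (stabilizer G a) = ga := (Nat.eq_of_mul_eq_mul_left (by omega) h3).symm
  have h6 : ∀ b, a ≠ b → Nat.card ↥(stabilizer G a ⊓ stabilizer G b) = gab := by
    intro b hab
    have h5 := card_stab S hab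
    rw [h4, hn, hga] at h5
    exact (Nat.eq_of_mul_eq_mul_left (by omega) h5).symm
  have h7 := num S hab hr (c := r ^ k * k.factorial) (by
    rw [h4, hga, hk, Nat.add_sub_cancel, mul_assoc]; exact dvd_mul_right _ _) (by rw [h4]; exact h2) (by
    intro x hx hxa
    refine card_cent_dvd hr hx hxa ?_ (hn.trans hk)
    intro b hba hxb
    apply hgab
    rw [← h6 b (Ne.symm hba), ← hx]
    exact Subgroup.orderOf_dvd_natCard _ (show x ∈ stabilizer G a ⊓ stabilizer G b from ⟨hxa, hxb⟩))
  rw [h4, h6 b hab, hn] at h7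
  have hgab0 : 0 < gab := by
    rcases Nat.eq_zero_or_pos gab with h8 | h8
    · rw [h8, mul_zero] at hga
      omega
    · exact h8
  exact not_num hga0 hgab0 (by omega) hr.one_lt (Nat.mul_pos (pow_pos hr.pos _) (Nat.factorial_pos _)) hc1 hB h h7

/-- exclusion by `β² ∣ |G_ab|` -/
theorem not_sys_sq (S : Sys N) {n gab : ℕ} (hn : Nat.card X = n) (hn2 : 2 ≤ n) (hG : Nat.card G = n * ((n - 1) * gab))
    (hgab : 0 < gab) (h : ∀ β, 2 ≤ β → ¬ β ^ 2 ∣ gab) : False := by
  obtain ⟨a, b, hab, -⟩ := S.nsr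
  have h3 := card_G S a
  rw [hG, hn, card_stab S hab, hn] at h3
  have h4 := Nat.eq_of_mul_eq_mul_left (by omega) (Nat.eq_of_mul_eq_mul_left (by omega) h3)
  have h5 := sq_dvd S hab
  rw [← h4] at h5
  exact h _ (S.two_le_card_A hab) h5

/-! ### The tests -/

-- M11 on 11 points
theorem t_m11 : chk 720 72 10 5 (5 ^ 2 * Nat.factorial 2) 8 = true := by decide +kernel
-- M11 on 12 points
theorem t_m11' : chk 660 60 11 11 (11 ^ 1 * Nat.factorial 1) 7 = true := by decide +kernel
-- M12
theorem t_m12 : chk 7920 720 11 11 (11 ^ 1 * Nat.factorial 1) 26 = true := by decide +kernel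
theorem t_m12' : chk 15840 1440 11 11 (11 ^ 1 * Nat.factorial 1) 37 = true := by decide +kernel
-- M22 with centraliser bound 7, 14
theorem t_m22 : chk 20160 960 21 7 7 30 = true := by decide +kernel
theorem t_m22' : chk 40320 1920 21 7 14 43 = true := by decide +kernel
-- M23
theorem t_m23 : chk 443520 20160 22 11 (11 ^ 2 * Nat.factorial 2) 141 = true := by decide +kernel
-- M24
theorem t_m24 : chk 10200960 443520 23 23 (23 ^ 1 * Nat.factorial 1) 665 = true := by decide +kernel
-- A7 on 15 points
theorem t_a7 : chk 168 12 14 7 (7 ^ 2 * Nat.factorial 2) 3 = true := by decide +kernel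
theorem t_a7' : chk 336 24 14 7 (7 ^ 2 * Nat.factorial 2) 4 = true := by decide +kernel
-- PSL(2, 11) on 11 points
theorem t_l11 : chk 60 6 10 5 (5 ^ 2 * Nat.factorial 2) 2 = true := by decide +kernel
theorem t_l11' : chk 120 12 10 5 (5 ^ 2 * Nat.factorial 2) 3 = true := by decide +kernel
-- HS on 176 points (centralisers of order prime to 5)
theorem t_hs : chk 252000 1440 175 7 354816 37 = true := by decide +kernel
theorem t_hs' : chk 504000 2880 175 7 709632 53 = true := by decide +kernel
-- Co3 on 276 points (centralisers of order prime to 5 and 7)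
theorem t_co3 : chk 1796256000 6531840 275 11 566590464 2555 = true := by decide +kernel

end Cfsg.Agent.H88.SysNum
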